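import Cfsg.Agent.H939.L16.Def2
import Cfsg.Agent.H192.Lang

/-!
# S5916, box NN (helper493): the canonical submodules `NN ρ n`

* `NN_map`, `NN_frob`, `NN_inv` : `NN ρ n` is stable under `θ` normalizing `ρ`, under the Frobenius map, and invariant;
* `fam_of_simp` : a simple submodule of dimension `2 ^ n`, `n = 1, 2, 3`, contains a non-zero family;
* `simp_of_fam1`, `simp_of_fam2`, `simp_of_fam3` : a non-zero family spans a simple submodule of dimension `2 ^ n`;
* `NN_le` : `NN ρ n` is spanned by the vectors of the families; `NN_leQ` : the families of type `(i, i + 2)` can be taken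
  rational;
* `exists_min`.
-/

set_option autoImplicit false
set_option maxRecDepth 100000
set_option linter.unusedSectionVars false

namespace Cfsg.Agent.H493.L16

open Matrix Cfsg Cfsg.Lie
open Cfsg.Agent.H939.L64 (KK E2 LK em aK rE fr brK)
open Cfsg.Agent.H943.SL2Mod (Inv Irr)
open Cfsg.Agent.H943.SL2Rel Cfsg.Agent.H943.RepAdd
open Cfsg.Agent.H280.L16 (PDat Fam1 Fam2 Fam3 HasFam fam1 fam2 fam3 exists_emb exists_fam mem_Bb_of F_char k_two)
open Cfsg.Agent.H939.L16 (Simp NN MinF FamV)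
open Cfsg.Agent.H943.SL2Mod (Vb Bb Bf)

variable {F : Type} [Field F] [Fintype F]
variable (ρ : Representation KK (SpecialLinearGroup (Fin 2) F) LK)

section stab

/-- images of simple submodules under maps normalizing the group -/
theorem Simp.map {ρ : Representation KK (SpecialLinearGroup (Fin 2) F) LK} (θ : LK ≃ₗ[KK] LK)
    (α : SpecialLinearGroup (Fin 2) F ≃* SpecialLinearGroup (Fin 2) F) (h : ∀ s v, θ (ρ s v) = ρ (α s) (θ v))
    {X : Submodule KK LK} (hX : Simp ρ X) : Simp ρ (X.map (θ : LK →ₗ[KK] LK)) := by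
  refine ⟨?_, ?_, ?_⟩
  · rintro g _ ⟨x, hx, rfl⟩
    refine ⟨ρ (α.symm g) x, hX.1 _ x hx, ?_⟩
    change θ (ρ (α.symm g) x) = _
    rw [h, MulEquiv.apply_symm_apply]
    rfl
  · intro h0
    apply hX.2.1
    rw [eq_bot_iff]
    intro x hx
    have h1 : θ x ∈ X.map (θ : LK →ₗ[KK] LK) := ⟨x, hx, rfl⟩
    rw [h0] at h1
    exact (map_eq_zero_iff θ θ.injective).1 h1
  · intro Y hY hYi
    have hle : Y.comap (θ : LK →ₗ[KK] LK) ≤ X := by
      intro x hx
      obtain ⟨x', hx', e⟩ := hY hx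
      rw [← θ.injective e]
      exact hx'
    have hi : Inv ρ (Y.comap (θ : LK →ₗ[KK] LK)) := by
      intro g x hx
      change θ (ρ g x) ∈ Y
      rw [h]
      exact hYi _ _ hx
    have hm : (Y.comap (θ : LK →ₗ[KK] LK)).map (θ : LK →ₗ[KK] LK) = Y :=
      Submodule.map_comap_eq_of_surjective θ.surjective Y
    rcases hX.2.2 _ hle hi with h1 | h1
    · left
      rw [← hm, h1, Submodule.map_bot]
    · right
      rw [← hm, h1]

/-- **(a)** -/
theorem NN_map (θ : LK ≃ₗ[KK] LK) (α : SpecialLinearGroup (Fin 2) F ≃* SpecialLinearGroup (Fin 2) F)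
    (h : ∀ s v, θ (ρ s v) = ρ (α s) (θ v)) (n : ℕ) : ∀ v ∈ NN ρ n, θ v ∈ NN ρ n := by
  have key : NN ρ n ≤ (NN ρ n).comap (θ : LK →ₗ[KK] LK) := by
    refine sSup_le ?_
    rintro X ⟨hX, hd⟩ x hx
    have h1 : Simp ρ (X.map (θ : LK →ₗ[KK] LK)) ∧ Module.finrank KK (X.map (θ : LK →ₗ[KK] LK)) = 2 ^ n :=
      ⟨Simp.map θ α h hX, by rw [LinearEquiv.finrank_map_eq, hd]⟩
    exact (le_sSup h1 : _ ≤ NN ρ n) ⟨x, hx, rfl⟩
  exact key

/-- **(c)** -/
theorem NN_inv (n : ℕ) : Inv ρ (NN ρ n) := by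
  intro g
  have key : NN ρ n ≤ (NN ρ n).comap (ρ g) := by
    refine sSup_le ?_
    rintro X ⟨hX, hd⟩ x hx
    exact (le_sSup ⟨hX, hd⟩ : X ≤ NN ρ n) (hX.1 g x hx)
  exact key

section frob

variable {Fp : LK → LK} (hadd : ∀ u v, Fp (u + v) = Fp u + Fp v) (hsmul : ∀ (c : KK) u, Fp (c • u) = c ^ 2 • Fp u)
  (hinj : Function.Injective Fp)

include hadd in
theorem Fp_zero : Fp 0 = 0 := by
  have h1 := hadd 0 0
  rw [add_zero] at h1
  exact left_eq_add.1 h1

/-- the image of a subspace under the Frobenius map -/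
def imF (X : Submodule KK LK) : Submodule KK LK where
  carrier := {v | ∃ x ∈ X, Fp x = v}
  add_mem' := by
    rintro _ _ ⟨a, ha, rfl⟩ ⟨b, hb, rfl⟩
    exact ⟨a + b, X.add_mem ha hb, hadd a b⟩
  zero_mem' := ⟨0, X.zero_mem, Fp_zero hadd⟩
  smul_mem' := by
    rintro c _ ⟨a, ha, rfl⟩
    obtain ⟨d, hd⟩ := IsAlgClosed.exists_pow_nat_eq c (n := 2) (by norm_num)
    exact ⟨d • a, X.smul_mem d ha, by rw [hsmul, hd]⟩

include hinj in
theorem finrank_imF (X : Submodule KK LK) : Module.finrank KK (imF hadd hsmul X) = Module.finrank KK X := by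
  let j : X ≃+ imF hadd hsmul X :=
    { Equiv.ofBijective (fun x : X => (⟨Fp x, x, x.2, rfl⟩ : imF hadd hsmul X))
        ⟨fun a b h => Subtype.ext (hinj (congrArg Subtype.val h)), by
          rintro ⟨_, x, hx, rfl⟩
          exact ⟨⟨x, hx⟩, rfl⟩⟩ with
      map_add' := fun a b => Subtype.ext (hadd a b) }
  have hi : Function.Bijective (fun c : KK => c ^ 2) := by
    refine ⟨fun a b h => ?_, fun c => IsAlgClosed.exists_pow_nat_eq c (by norm_num)⟩
    exact frobenius_inj KK 2 h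
  have h1 := rank_eq_of_equiv_equiv (fun c : KK => c ^ 2) j hi fun r m => Subtype.ext (hsmul r m)
  unfold Module.finrank
  rw [h1]

include hadd hsmul hinj in
theorem Simp.imF {ρ : Representation KK (SpecialLinearGroup (Fin 2) F) LK} (h : ∀ s v, Fp (ρ s v) = ρ s (Fp v))
    {X : Submodule KK LK} (hX : Simp ρ X) : Simp ρ (imF hadd hsmul X) := by
  have h00 := Fp_zero hadd
  refine ⟨?_, ?_, ?_⟩
  · rintro g _ ⟨x, hx, rfl⟩
    exact ⟨ρ g x, hX.1 _ x hx, h g x⟩
  · intro h0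
    apply hX.2.1
    rw [eq_bot_iff]
    intro x hx
    have h1 : Fp x ∈ L16.imF hadd hsmul X := ⟨x, hx, rfl⟩
    rw [h0] at h1
    exact hinj (((Submodule.mem_bot KK).1 h1).trans h00.symm)
  · intro Y hY hYi
    let Y' : Submodule KK LK :=
      { carrier := {x | Fp x ∈ Y}
        add_mem' := fun {a b} ha hb => by
          change Fp (a + b) ∈ Y
          rw [hadd]
          exact Y.add_mem ha hb
        zero_mem' := by
          change Fp 0 ∈ Y
          rw [h00]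
          exact Y.zero_mem
        smul_mem' := fun c a ha => by
          change Fp (c • a) ∈ Y
          rw [hsmul]
          exact Y.smul_mem _ ha }
    have hle : Y' ≤ X := by
      intro x hx
      obtain ⟨x', hx', e⟩ := hY hx
      rw [← hinj e]
      exact hx'
    have hi : Inv ρ Y' := by
      intro g x hx
      change Fp (ρ g x) ∈ Y
      rw [h]
      exact hYi _ _ hx
    rcases hX.2.2 _ hle hi with h1 | h1
    · left
      rw [eq_bot_iff]
      intro v hv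
      obtain ⟨x, hx, rfl⟩ := hY hv
      have h2 : x ∈ Y' := hv
      rw [h1] at h2
      rw [(Submodule.mem_bot KK).1 h2, h00]
      exact Submodule.zero_mem _
    · right
      refine le_antisymm hY ?_
      rintro _ ⟨x, hx, rfl⟩
      rw [← h1] at hx
      exact hx

include hadd hsmul hinj in
/-- **(b)** -/
theorem NN_frob (h : ∀ s v, Fp (ρ s v) = ρ s (Fp v)) (n : ℕ) : ∀ v ∈ NN ρ n, Fp v ∈ NN ρ n := by
  let Y' : Submodule KK LK :=
    { carrier := {x | Fp x ∈ NN ρ n}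
      add_mem' := fun {a b} ha hb => by
        change Fp (a + b) ∈ NN ρ n
        rw [hadd]
        exact (NN ρ n).add_mem ha hb
      zero_mem' := by
        change Fp 0 ∈ NN ρ n
        rw [Fp_zero hadd]
        exact (NN ρ n).zero_mem
      smul_mem' := fun c a ha => by
        change Fp (c • a) ∈ NN ρ n
        rw [hsmul]
        exact (NN ρ n).smul_mem _ ha }
  have key : NN ρ n ≤ Y' := by
    refine sSup_le ?_
    rintro X ⟨hX, hd⟩ x hx
    have h1 : Simp ρ (imF hadd hsmul X) ∧ Module.finrank KK (imF hadd hsmul X) = 2 ^ n :=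
      ⟨Simp.imF hadd hsmul hinj h hX, by rw [finrank_imF hadd hsmul hinj, hd]⟩
    exact (le_sSup h1 : _ ≤ NN ρ n) ⟨x, hx, rfl⟩
  exact key

end frob

end stab

/-! ### families and simple submodules -/

section fam

variable {ρ}

/-- the span of a family is invariant -/
theorem inv_span {κ : Type*} [Fintype κ] {U : Type*} [AddCommGroup U] [Module KK U]
    {r : Representation KK (SpecialLinearGroup (Fin 2) F) U} {c : SpecialLinearGroup (Fin 2) F → κ → κ → KK} {w : κ → U}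
    (hw : ∀ s a, r s (w a) = ∑ b, c s b a • w b) : Inv r (Submodule.span KK (Set.range w)) := by
  intro g
  have key : Submodule.span KK (Set.range w) ≤ (Submodule.span KK (Set.range w)).comap (r g) := by
    refine Submodule.span_le.2 ?_
    rintro _ ⟨a, rfl⟩
    change r g (w a) ∈ Submodule.span KK (Set.range w)
    rw [hw]
    exact sum_mem fun b _ => Submodule.smul_mem _ _ (Submodule.subset_span ⟨b, rfl⟩)
  exact key

/-- **a non-zero family spans a simple submodule** -/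
theorem simp_of_fam {κ : Type*} [Fintype κ] {U : Type*} [AddCommGroup U] [Module KK U] [FiniteDimensional KK U]
    {r : Representation KK (SpecialLinearGroup (Fin 2) F) U} (hr : Irr r) {f : κ → U}
    {c : SpecialLinearGroup (Fin 2) F → κ → κ → KK} (hf : ∀ s a, r s (f a) = ∑ b, c s b a • f b) (hf0 : ∃ a, f a ≠ 0)
    (hd : Fintype.card κ = Module.finrank KK U) {w : κ → LK} (hw : ∀ s a, ρ s (w a) = ∑ b, c s b a • w b)
    (hw0 : ∃ a, w a ≠ 0) :
    Simp ρ (Submodule.span KK (Set.range w)) ∧ Module.finrank KK (Submodule.span KK (Set.range w)) = Fintype.card κ := by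
  have htop : Submodule.span KK (Set.range f) = ⊤ := by
    rcases hr.2 _ (inv_span hf) with h1 | h1
    · exfalso
      obtain ⟨a, ha⟩ := hf0
      have h2 : f a ∈ Submodule.span KK (Set.range f) := Submodule.subset_span ⟨a, rfl⟩
      rw [h1] at h2
      exact ha ((Submodule.mem_bot KK).1 h2)
    · exact h1
  let B : Module.Basis κ KK U := basisOfTopLeSpanOfCardEqFinrank f htop.ge hd
  have hB : ∀ a, B a = f a := fun a => by
    change (basisOfTopLeSpanOfCardEqFinrank f htop.ge hd) a = f a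
    rw [coe_basisOfTopLeSpanOfCardEqFinrank]
  let Ψ : U →ₗ[KK] LK := B.constr KK w
  have hΨ : ∀ a, Ψ (f a) = w a := fun a => by
    rw [← hB]
    exact B.constr_basis KK w a
  have hint : ∀ s x, Ψ (r s x) = ρ s (Ψ x) := by
    intro s
    have h1 : Ψ ∘ₗ (r s) = (ρ s) ∘ₗ Ψ := by
      apply B.ext
      intro a
      rw [LinearMap.comp_apply, LinearMap.comp_apply, hB, hf, hΨ, hw, map_sum]
      exact Finset.sum_congr rfl fun b _ => by rw [map_smul, hΨ]
    exact fun x => LinearMap.congr_fun h1 x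
  have hker : LinearMap.ker Ψ = ⊥ := by
    have hi : Inv r (LinearMap.ker Ψ) := by
      intro g x hx
      rw [LinearMap.mem_ker] at hx ⊢
      rw [hint, hx, map_zero]
    rcases hr.2 _ hi with h1 | h1
    · exact h1
    · exfalso
      obtain ⟨a, ha⟩ := hw0
      have h2 : f a ∈ LinearMap.ker Ψ := by rw [h1]; trivial
      rw [LinearMap.mem_ker, hΨ] at h2
      exact ha h2
  have hinj : Function.Injective Ψ := LinearMap.ker_eq_bot.1 hker
  have hrange : LinearMap.range Ψ = Submodule.span KK (Set.range w) := B.constr_range KK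
  rw [← hrange]
  refine ⟨⟨?_, ?_, ?_⟩, ?_⟩
  · rw [hrange]
    exact inv_span hw
  · intro h0
    obtain ⟨a, ha⟩ := hw0
    have h1 : w a ∈ LinearMap.range Ψ := ⟨f a, hΨ a⟩
    rw [h0] at h1
    exact ha ((Submodule.mem_bot KK).1 h1)
  · intro Y hY hYi
    have hi : Inv r (Y.comap Ψ) := by
      intro g x hx
      change Ψ (r g x) ∈ Y
      rw [hint]
      exact hYi _ _ hx
    have hm : (Y.comap Ψ).map Ψ = Y := by
      rw [Submodule.map_comap_eq]
      exact inf_eq_right.2 hY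
    rcases hr.2 _ hi with h1 | h1
    · left; rw [← hm, h1, Submodule.map_bot]
    · right; rw [← hm, h1, Submodule.map_top]
  · rw [LinearMap.finrank_range_of_inj hinj, hd]

section dat

variable [DecidableEq F] {ι : F →+* KK} {P : SpecialLinearGroup (Fin 2) F →* Matrix (Fin 2) (Fin 2) KK}
  {y t0 : SpecialLinearGroup (Fin 2) F} {ζ : KK}

theorem neg_one_pow' (n : ℕ) : (-1 : KK) ^ n = 1 := by
  have h2 : (2 : KK) = 0 := by
    have := CharP.cast_eq_zero KK 2
    exact_mod_cast this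
  have hneg : (-1 : KK) = 1 := by
    have : (1 : KK) + 1 = 0 := by rw [one_add_one_eq_two, h2]
    exact neg_eq_of_add_eq_zero_left this
  rw [hneg, one_pow]

/-- the number of odd binomial coefficients -/
def Bm (b : ℕ) : Finset ℕ := (Finset.range (b + 1)).filter fun m => b.choose m % 2 = 1

theorem finrank_Vb [CharP F 2] {b : ℕ} (hb : b ≤ Fintype.card F - 1) :
    Module.finrank KK (Vb ι b) = (Bm b).card := by
  classical
  obtain ⟨e, -⟩ := Cfsg.Agent.H179.SLC.exists_coord ι 2 ι.injective (neg_one_pow' _) hb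
  rw [← e.finrank_eq, Module.finrank_fintype_fun_eq_card, Fintype.card_coe]
  congr 1
  unfold Bf Bm
  refine Finset.filter_congr fun m _ => ?_
  rw [Ne, CharP.cast_eq_zero_iff KK 2]
  omega

theorem fd_Vb (b : ℕ) : FiniteDimensional KK (Vb ι b) := inferInstance

variable (D : PDat ι P y t0 ζ)

include D in
theorem F2 : CharP F 2 := F_char D.card

/-- the exponents -/
theorem Hm1 : ∀ i < 4, (∀ m ∈ [0, 2 ^ i], m ∈ Bb KK (2 ^ i)) := by
  intro i hi
  interval_cases i <;> intro m hm <;> fin_cases hm <;> exact mem_Bb_of (by norm_num) (by decide)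

theorem Hm2 : ∀ i j, i < j → j < 4 → (∀ m ∈ [0, 2 ^ i, 2 ^ j, 2 ^ i + 2 ^ j], m ∈ Bb KK (2 ^ i + 2 ^ j)) := by
  intro i j hij hj
  interval_cases j <;> interval_cases i <;> intro m hm <;> fin_cases hm <;> exact mem_Bb_of (by norm_num) (by decide)

theorem Hm3 : ∀ i j l, i < j → j < l → l < 4 →
    (∀ m ∈ [0, 2 ^ i, 2 ^ j, 2 ^ l, 2 ^ i + 2 ^ j, 2 ^ i + 2 ^ l, 2 ^ j + 2 ^ l, 2 ^ i + 2 ^ j + 2 ^ l],
      m ∈ Bb KK (2 ^ i + 2 ^ j + 2 ^ l)) := by
  intro i j l hij hjl hl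
  interval_cases l <;> interval_cases j <;> interval_cases i <;> intro m hm <;> fin_cases hm <;>
    exact mem_Bb_of (by norm_num) (by decide)

include D in
/-- **a family with one exponent spans a simple submodule of dimension 2** -/
theorem simp_of_fam1 {i : ℕ} (hi : i < 4) {w : Fin 2 → LK} (hw : Fam1 P ρ i w) (hw0 : w ≠ 0) :
    Simp ρ (Submodule.span KK (Set.range w)) ∧ Module.finrank KK (Submodule.span KK (Set.range w)) = 2 ^ 1 := by
  classical
  have := F2 D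
  have hs1 := neg_one_pow' (Fintype.card F - 1)
  have hb : 2 ^ i ≤ Fintype.card F - 1 := by
    rw [D.card]
    interval_cases i <;> norm_num
  obtain ⟨f, hf, hf0, -⟩ := fam1 (Cfsg.Agent.H179.SLC.rb ι 2 hs1 hb) D hs1 hb LinearMap.id Function.injective_id
    (fun _ _ => rfl) (Hm1 i hi)
  have h1 := simp_of_fam (ρ := ρ) (Cfsg.Agent.H179.SLC.irr_rb ι 2 ι.injective hs1 hb) (f := f)
    (c := fun s b a => (P s b a) ^ 2 ^ i) hf (Function.ne_iff.1 hf0) (by
      rw [finrank_Vb hb]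
      interval_cases i <;> decide) hw (Function.ne_iff.1 hw0)
  exact h1

include D in
/-- **a family with two exponents spans a simple submodule of dimension 4** -/
theorem simp_of_fam2 {i j : ℕ} (hij : i < j) (hj : j < 4) {w : Fin 2 → Fin 2 → LK} (hw : Fam2 P ρ i j w) (hw0 : w ≠ 0) :
    Simp ρ (Submodule.span KK (Set.range fun a : Fin 2 × Fin 2 => w a.1 a.2)) ∧
      Module.finrank KK (Submodule.span KK (Set.range fun a : Fin 2 × Fin 2 => w a.1 a.2)) = 2 ^ 2 := by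
  classical
  have := F2 D
  have hs1 := neg_one_pow' (Fintype.card F - 1)
  have hb : 2 ^ i + 2 ^ j ≤ Fintype.card F - 1 := by
    rw [D.card]
    interval_cases j <;> interval_cases i <;> norm_num
  obtain ⟨f, hf, hf0, -⟩ := fam2 (Cfsg.Agent.H179.SLC.rb ι 2 hs1 hb) D hs1 hb LinearMap.id Function.injective_id
    (fun _ _ => rfl) (Hm2 i j hij hj)
  have hne : ∀ {U : Type} [AddCommGroup U] {w : Fin 2 → Fin 2 → U}, w ≠ 0 → ∃ a : Fin 2 × Fin 2, w a.1 a.2 ≠ 0 := by
    intro U _ w h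
    obtain ⟨a, ha⟩ := Function.ne_iff.1 h
    obtain ⟨b, hb⟩ := Function.ne_iff.1 ha
    exact ⟨(a, b), hb⟩
  have h1 := simp_of_fam (ρ := ρ) (Cfsg.Agent.H179.SLC.irr_rb ι 2 ι.injective hs1 hb)
    (f := fun a : Fin 2 × Fin 2 => f a.1 a.2)
    (c := fun s b a => (P s b.1 a.1) ^ 2 ^ i * (P s b.2 a.2) ^ 2 ^ j) (fun s a => by rw [Fintype.sum_prod_type]; exact hf s _ _)
    (hne hf0) (by
      rw [finrank_Vb hb]
      interval_cases j <;> interval_cases i <;> decide) (fun s a => by rw [Fintype.sum_prod_type]; exact hw s _ _) (hne hw0)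
  exact h1

include D in
/-- **a family with three exponents spans a simple submodule of dimension 8** -/
theorem simp_of_fam3 {i j l : ℕ} (hij : i < j) (hjl : j < l) (hl : l < 4) {w : Fin 2 → Fin 2 → Fin 2 → LK}
    (hw : Fam3 P ρ i j l w) (hw0 : w ≠ 0) :
    Simp ρ (Submodule.span KK (Set.range fun a : Fin 2 × Fin 2 × Fin 2 => w a.1 a.2.1 a.2.2)) ∧
      Module.finrank KK (Submodule.span KK (Set.range fun a : Fin 2 × Fin 2 × Fin 2 => w a.1 a.2.1 a.2.2)) = 2 ^ 3 := by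
  classical
  have := F2 D
  have hs1 := neg_one_pow' (Fintype.card F - 1)
  have hb : 2 ^ i + 2 ^ j + 2 ^ l ≤ Fintype.card F - 1 := by
    rw [D.card]
    interval_cases l <;> interval_cases j <;> interval_cases i <;> norm_num
  obtain ⟨f, hf, hf0, -⟩ := fam3 (Cfsg.Agent.H179.SLC.rb ι 2 hs1 hb) D hs1 hb LinearMap.id Function.injective_id
    (fun _ _ => rfl) (Hm3 i j l hij hjl hl)
  have hne : ∀ {U : Type} [AddCommGroup U] {w : Fin 2 → Fin 2 → Fin 2 → U}, w ≠ 0 →
      ∃ a : Fin 2 × Fin 2 × Fin 2, w a.1 a.2.1 a.2.2 ≠ 0 := by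
    intro U _ w h
    obtain ⟨a, ha⟩ := Function.ne_iff.1 h
    obtain ⟨b, hb⟩ := Function.ne_iff.1 ha
    obtain ⟨c, hc⟩ := Function.ne_iff.1 hb
    exact ⟨(a, b, c), hc⟩
  have h1 := simp_of_fam (ρ := ρ) (Cfsg.Agent.H179.SLC.irr_rb ι 2 ι.injective hs1 hb)
    (f := fun a : Fin 2 × Fin 2 × Fin 2 => f a.1 a.2.1 a.2.2)
    (c := fun s b a => (P s b.1 a.1) ^ 2 ^ i * (P s b.2.1 a.2.1) ^ 2 ^ j * (P s b.2.2 a.2.2) ^ 2 ^ l)
    (fun s a => by
      rw [Fintype.sum_prod_type]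
      simp only [Fintype.sum_prod_type]
      exact hf s _ _ _)
    (hne hf0) (by
      rw [finrank_Vb hb]
      interval_cases l <;> interval_cases j <;> interval_cases i <;> decide) (fun s a => by
      rw [Fintype.sum_prod_type]
      simp only [Fintype.sum_prod_type]
      exact hw s _ _ _) (hne hw0)
  exact h1

include D in
/-- the vectors of the families lie in `NN` -/
theorem famV_le (n : ℕ) : FamV P ρ n ⊆ NN ρ n := by
  classical
  rintro v (⟨rfl, i, hi, w, hw, a, rfl⟩ | ⟨rfl, i, j, hij, hj, w, hw, a, b, rfl⟩ |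
    ⟨rfl, i, j, l, hij, hjl, hl, w, hw, a, b, c, rfl⟩)
  · by_cases h0 : w = 0
    · rw [h0]
      exact Submodule.zero_mem _
    · exact (le_sSup (simp_of_fam1 D hi hw h0) : _ ≤ NN ρ 1) (Submodule.subset_span ⟨a, rfl⟩)
  · by_cases h0 : w = 0
    · rw [h0]
      exact Submodule.zero_mem _
    · exact (le_sSup (simp_of_fam2 D hij hj hw h0) : _ ≤ NN ρ 2) (Submodule.subset_span ⟨(a, b), rfl⟩)
  · by_cases h0 : w = 0
    · rw [h0]
      exact Submodule.zero_mem _
    · exact (le_sSup (simp_of_fam3 D hij hjl hl hw h0) : _ ≤ NN ρ 3) (Submodule.subset_span ⟨(a, b, c), rfl⟩)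

theorem tab1 : ∀ b ≤ 15, (Bm b).card = 2 ^ 1 → ∃ i < 4, b = 2 ^ i := by decide

theorem tab2 : ∀ b ≤ 15, (Bm b).card = 2 ^ 2 → ∃ i < 4, ∃ j < 4, i < j ∧ b = 2 ^ i + 2 ^ j := by decide

theorem tab3 : ∀ b ≤ 15, (Bm b).card = 2 ^ 3 → ∃ i < 4, ∃ j < 4, ∃ l < 4, i < j ∧ j < l ∧ b = 2 ^ i + 2 ^ j + 2 ^ l := by
  decide

/-- the span of a family in a simple submodule -/
theorem span_eq {κ : Type*} [Fintype κ] {X : Submodule KK LK} (hX : Simp ρ X)
    {c : SpecialLinearGroup (Fin 2) F → κ → κ → KK} {w : κ → LK} (hw : ∀ s a, ρ s (w a) = ∑ b, c s b a • w b)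
    (hw0 : ∃ a, w a ≠ 0) (hwX : ∀ a, w a ∈ X) : Submodule.span KK (Set.range w) = X := by
  rcases hX.2.2 _ (Submodule.span_le.2 (by rintro _ ⟨a, rfl⟩; exact hwX a)) (inv_span hw) with h1 | h1
  · exfalso
    obtain ⟨a, ha⟩ := hw0
    have h2 : w a ∈ Submodule.span KK (Set.range w) := Submodule.subset_span ⟨a, rfl⟩
    rw [h1] at h2
    exact ha ((Submodule.mem_bot KK).1 h2)
  · exact h1

include D in
/-- **simple submodules of dimension 2, 4, 8 are spanned by families** -/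
theorem le_span_famV {n : ℕ} (hn : n = 1 ∨ n = 2 ∨ n = 3) {X : Submodule KK LK} (hX : Simp ρ X)
    (hd : Module.finrank KK X = 2 ^ n) : X ≤ Submodule.span KK (FamV P ρ n) := by
  classical
  have := F2 D
  have hs1 := neg_one_pow' (Fintype.card F - 1)
  obtain ⟨b, hb, Φ, hinj, hmem, hΦ⟩ := exists_emb (ι := ι) ρ hs1 X hX.1 hX.2.1
  have hb' : b ≤ 15 := by rw [D.card] at hb; exact hb
  have hrX : LinearMap.range Φ = X := by
    have hir := Cfsg.Agent.H179.SLC.irr_rb ι 2 ι.injective hs1 hb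
    rcases hX.2.2 (LinearMap.range Φ) (by rintro _ ⟨x, rfl⟩; exact hmem x) (by
      rintro g _ ⟨x, rfl⟩
      exact ⟨_, hΦ g x⟩) with h1 | h1
    · exfalso
      have := hir.1
      obtain ⟨x, hx⟩ := exists_ne (0 : Vb ι b)
      have h2 : Φ x ∈ LinearMap.range Φ := ⟨x, rfl⟩
      rw [h1] at h2
      exact hx (hinj (((Submodule.mem_bot KK).1 h2).trans (map_zero Φ).symm))
    · exact h1
  have hcard : (Bm b).card = 2 ^ n := by
    rw [← finrank_Vb (ι := ι) hb, ← hd, ← hrX, LinearMap.finrank_range_of_inj hinj]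
  rcases hn with rfl | rfl | rfl
  · obtain ⟨i, hi, rfl⟩ := tab1 b hb' hcard
    obtain ⟨w, hw, hw0, hwL⟩ := fam1 ρ D hs1 hb Φ hinj hΦ (Hm1 i hi)
    rw [hrX] at hwL
    rw [← span_eq hX (c := fun s b a => (P s b a) ^ 2 ^ i) hw (Function.ne_iff.1 hw0) hwL]
    refine Submodule.span_mono ?_
    rintro _ ⟨a, rfl⟩
    exact Or.inl ⟨rfl, i, hi, w, hw, a, rfl⟩
  · obtain ⟨i, hi, j, hj, hij, rfl⟩ := tab2 b hb' hcard
    obtain ⟨w, hw, hw0, hwL⟩ := fam2 ρ D hs1 hb Φ hinj hΦ (Hm2 i j hij hj)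
    rw [hrX] at hwL
    obtain ⟨a, ha⟩ := Function.ne_iff.1 hw0
    obtain ⟨b, hb⟩ := Function.ne_iff.1 ha
    rw [← span_eq hX (c := fun s b a => (P s b.1 a.1) ^ 2 ^ i * (P s b.2 a.2) ^ 2 ^ j)
      (w := fun a : Fin 2 × Fin 2 => w a.1 a.2) (fun s a => by rw [Fintype.sum_prod_type]; exact hw s _ _) ⟨(a, b), hb⟩
      (fun a => hwL _ _)]
    refine Submodule.span_mono ?_
    rintro _ ⟨a, rfl⟩
    exact Or.inr (Or.inl ⟨rfl, i, j, hij, hj, w, hw, a.1, a.2, rfl⟩)
  · obtain ⟨i, hi, j, hj, l, hl, hij, hjl, rfl⟩ := tab3 b hb' hcard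
    obtain ⟨w, hw, hw0, hwL⟩ := fam3 ρ D hs1 hb Φ hinj hΦ (Hm3 i j l hij hjl hl)
    rw [hrX] at hwL
    obtain ⟨a, ha⟩ := Function.ne_iff.1 hw0
    obtain ⟨b, hb⟩ := Function.ne_iff.1 ha
    obtain ⟨c, hc⟩ := Function.ne_iff.1 hb
    rw [← span_eq hX (c := fun s b a => (P s b.1 a.1) ^ 2 ^ i * (P s b.2.1 a.2.1) ^ 2 ^ j * (P s b.2.2 a.2.2) ^ 2 ^ l)
      (w := fun a : Fin 2 × Fin 2 × Fin 2 => w a.1 a.2.1 a.2.2) (fun s a => by
        rw [Fintype.sum_prod_type]
        simp only [Fintype.sum_prod_type]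
        exact hw s _ _ _) ⟨(a, b, c), hc⟩
      (fun a => hwL _ _ _)]
    refine Submodule.span_mono ?_
    rintro _ ⟨a, rfl⟩
    exact Or.inr (Or.inr ⟨rfl, i, j, l, hij, hjl, hl, w, hw, a.1, a.2.1, a.2.2, rfl⟩)

include D in
/-- **(d)** -/
theorem NN_eq {n : ℕ} (hn : n = 1 ∨ n = 2 ∨ n = 3) : NN ρ n = Submodule.span KK (FamV P ρ n) := by
  refine le_antisymm ?_ (Submodule.span_le.2 (famV_le D n))
  refine sSup_le ?_
  rintro X ⟨hX, hd⟩
  exact le_span_famV D hn hX hd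

include D in
/-- **(d)** -/
theorem NN_le {n : ℕ} (hn : n = 1 ∨ n = 2 ∨ n = 3) :
    NN ρ n ≤ Submodule.span KK (FamV P ρ n ∩ (NN ρ n : Set LK)) := by
  rw [Set.inter_eq_left.2 (famV_le D n), ← NN_eq D hn]

include D in
/-- **(e)** -/
theorem exists_min (hfix : ∀ v, (∀ s, ρ s v = v) → v = 0) (hy : ∃ v, v ≠ 0 ∧ ρ y v = v) :
    ∃ n, (n = 1 ∨ n = 2 ∨ n = 3) ∧ NN ρ n ≠ ⊥ ∧ MinF P ρ n := by
  classical
  obtain ⟨v, hv0, hv⟩ := hy
  have hfam := exists_fam ρ D ⊤ (fun _ _ _ => Submodule.mem_top) (fun v _ hv => hfix v hv) Submodule.mem_top hv hv0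
  have hbot : ∀ {n : ℕ} {v : LK}, v ∈ FamV P ρ n → v ≠ 0 → NN ρ n ≠ ⊥ := by
    intro n v hv h0 h1
    have h2 := famV_le D n hv
    rw [h1] at h2
    exact h0 ((Submodule.mem_bot KK).1 h2)
  by_cases h1 : ∃ i < 4, ∃ w, Fam1 P ρ i w ∧ w ≠ 0
  · obtain ⟨i, hi, w, hw, hw0⟩ := h1
    obtain ⟨a, ha⟩ := Function.ne_iff.1 hw0
    exact ⟨1, Or.inl rfl, hbot (v := w a) (Or.inl ⟨rfl, i, hi, w, hw, a, rfl⟩) ha, hfix,
      fun h => absurd h (by norm_num), fun h => absurd h (by norm_num)⟩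
  push Not at h1
  by_cases h2 : ∃ i < 4, ∃ j < 4, i ≠ j ∧ ∃ w, Fam2 P ρ i j w ∧ w ≠ 0
  · obtain ⟨i, hi, j, hj, hij, w, hw, hw0⟩ := h2
    have hsw : ∃ i j, i < j ∧ j < 4 ∧ ∃ w, Fam2 P ρ i j w ∧ w ≠ 0 := by
      rcases lt_or_gt_of_ne hij with h | h
      · exact ⟨i, j, h, hj, w, hw, hw0⟩
      · refine ⟨j, i, h, hi, fun a b => w b a, fun s a c => ?_, fun h0 => hw0 ?_⟩
        · rw [hw s c a, Finset.sum_comm]
          exact Finset.sum_congr rfl fun b _ => Finset.sum_congr rfl fun d _ => by rw [mul_comm]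
        · funext a b
          exact congrFun (congrFun h0 b) a
    obtain ⟨i, j, hij, hj, w, hw, hw0⟩ := hsw
    obtain ⟨a, ha⟩ := Function.ne_iff.1 hw0
    obtain ⟨b, hb⟩ := Function.ne_iff.1 ha
    exact ⟨2, Or.inr (Or.inl rfl), hbot (v := w a b) (Or.inr (Or.inl ⟨rfl, i, j, hij, hj, w, hw, a, b, rfl⟩)) hb, hfix,
      fun _ => h1, fun h => absurd h (by norm_num)⟩
  push Not at h2
  rcases hfam with ⟨i, hi, w, hw, hw0, -⟩ | ⟨i, j, hij, hj, w, hw, hw0, -⟩ | ⟨i, j, l, hij, hjl, hl, w, hw, hw0, -⟩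
  · exact absurd (h1 i hi w hw) hw0
  · exact absurd (h2 i (hij.trans hj) j hj (Nat.ne_of_lt hij) w hw) hw0
  · obtain ⟨a, ha⟩ := Function.ne_iff.1 hw0
    obtain ⟨b, hb⟩ := Function.ne_iff.1 ha
    obtain ⟨c, hc⟩ := Function.ne_iff.1 hb
    exact ⟨3, Or.inr (Or.inr rfl),
      hbot (v := w a b c) (Or.inr (Or.inr ⟨rfl, i, j, l, hij, hjl, hl, w, hw, a, b, c, rfl⟩)) hc, hfix,
      fun _ => h1, fun _ => h2⟩

end dat

end fam

end Cfsg.Agent.H493.L16
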